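import Cfsg.Agent.H419.EP.Iface

/-!
# S3499: a crude bound for the order (helper729)

`crude` : if `|A|` divides `N` and `N` has at most `k + 1` prime factors (with multiplicity) then `|Q| ≤ N ^ (2 k + 1)`
(every proper subgroup of `A` is generated by `k` elements).
-/

set_option autoImplicit false

namespace Cfsg.Agent.H729.EPM

open Subgroup Cfsg.Agent.H284

theorem exists_gen {G : Type*} [Group G] [Finite G] (k : ℕ) :
    ∀ H : Subgroup G, ArithmeticFunction.cardFactors H.index ≤ k → ∃ f : Fin k → G, H ⊔ closure (Set.range f) = ⊤ := by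
  induction k with
  | zero =>
    intro H h
    refine ⟨Fin.elim0, ?_⟩
    have h1 : H.index = 1 := by
      rcases ArithmeticFunction.cardFactors_eq_zero_iff_eq_zero_or_one.1 (Nat.le_zero.1 h) with h2 | h2
      · exact absurd h2 H.index_ne_zero_of_finite
      · exact h2
    rw [index_eq_one.1 h1, top_sup_eq]
  | succ k ih =>
    intro H h
    by_cases hH : H = ⊤
    · exact ⟨fun _ => 1, by rw [hH, top_sup_eq]⟩
    · obtain ⟨g, hg⟩ : ∃ g, g ∉ H := by
        by_contra hcon
        push Not at hcon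
        exact hH ((eq_top_iff' H).2 hcon)
      have hle : H ≤ H ⊔ zpowers g := le_sup_left
      have hmul := relIndex_mul_index hle
      have h0 : (H ⊔ zpowers g).index ≠ 0 := index_ne_zero_of_finite
      have h0' : H.relIndex (H ⊔ zpowers g) ≠ 0 := by
        intro h0'
        rw [h0', zero_mul] at hmul
        exact H.index_ne_zero_of_finite hmul.symm
      have h1 : H.relIndex (H ⊔ zpowers g) ≠ 1 := by
        intro h1
        rw [relIndex_eq_one] at h1
        exact hg (h1 (mem_sup_right (mem_zpowers g)))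
      have h2 : 1 ≤ ArithmeticFunction.cardFactors (H.relIndex (H ⊔ zpowers g)) := by
        by_contra hcon
        rcases ArithmeticFunction.cardFactors_eq_zero_iff_eq_zero_or_one.1 (by omega : ArithmeticFunction.cardFactors (H.relIndex (H ⊔ zpowers g)) = 0) with h3 | h3
        · exact h0' h3
        · exact h1 h3
      rw [← hmul, ArithmeticFunction.cardFactors_mul h0' h0] at h
      obtain ⟨f, hf⟩ := ih (H ⊔ zpowers g) (by omega)
      refine ⟨Fin.cons g f, ?_⟩
      rw [Fin.range_cons, Set.insert_eq, Subgroup.closure_union, ← zpowers_eq_closure, ← sup_assoc]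
      exact hf

theorem exists_closure {G : Type*} [Group G] [Finite G] {M : Subgroup G} {k : ℕ}
    (h : ArithmeticFunction.cardFactors (Nat.card M) ≤ k) : ∃ f : Fin k → M, M = closure (Set.range fun i => (f i : G)) := by
  obtain ⟨f, hf⟩ := exists_gen k (⊥ : Subgroup M) (by rwa [index_bot])
  refine ⟨f, ?_⟩
  rw [bot_sup_eq] at hf
  have h1 := congrArg (Subgroup.map M.subtype) hf
  rw [MonoidHom.map_closure, ← MonoidHom.range_eq_map, range_subtype, ← Set.range_comp] at h1
  exact h1.symm

theorem cardFactors_lt {a b : ℕ} (hb : b ≠ 0) (h : a ∣ b) (hne : a ≠ b) :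
    ArithmeticFunction.cardFactors a < ArithmeticFunction.cardFactors b := by
  obtain ⟨c, rfl⟩ := h
  have ha : a ≠ 0 := left_ne_zero_of_mul hb
  have hc : c ≠ 0 := right_ne_zero_of_mul hb
  rw [ArithmeticFunction.cardFactors_mul ha hc]
  have h1 : c ≠ 1 := by
    rintro rfl
    exact hne (mul_one a).symm
  have h2 : ArithmeticFunction.cardFactors c ≠ 0 := by
    intro h3
    rcases ArithmeticFunction.cardFactors_eq_zero_iff_eq_zero_or_one.1 h3 with h4 | h4
    · exact hc h4
    · exact h1 h4
  omega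

theorem cardFactors_le {a b : ℕ} (hb : b ≠ 0) (h : a ∣ b) :
    ArithmeticFunction.cardFactors a ≤ ArithmeticFunction.cardFactors b := by
  by_cases hne : a = b
  · rw [hne]
  · exact (cardFactors_lt hb h hne).le

/-- the number of proper subgroups -/
theorem ncard_lt_le {Q : Type*} [Group Q] [Finite Q] {A : Subgroup Q} {k : ℕ}
    (hk : ArithmeticFunction.cardFactors (Nat.card A) ≤ k + 1) : {M : Subgroup Q | M < A}.ncard ≤ Nat.card A ^ k := by
  let Φ : (Fin k → A) → Subgroup Q := fun f => closure (Set.range fun i => (f i : Q))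
  have h1 : {M : Subgroup Q | M < A} ⊆ Φ '' Set.univ := by
    intro M hM
    have hMA : M < A := hM
    have h2 : ArithmeticFunction.cardFactors (Nat.card M) < ArithmeticFunction.cardFactors (Nat.card A) := by
      apply cardFactors_lt Nat.card_pos.ne' (Subgroup.card_dvd_of_le hMA.le)
      intro h3
      exact hMA.ne (Subgroup.eq_of_le_of_card_ge hMA.le h3.ge)
    obtain ⟨f, hf⟩ := exists_closure (M := M) (k := k) (by omega)
    exact ⟨fun i => ⟨f i, hMA.le (f i).2⟩, Set.mem_univ _, hf.symm⟩
  calc {M : Subgroup Q | M < A}.ncard ≤ (Φ '' Set.univ).ncard := Set.ncard_le_ncard h1 (Set.toFinite _)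
    _ ≤ (Set.univ : Set (Fin k → A)).ncard := Set.ncard_image_le (Set.toFinite _)
    _ = Nat.card A ^ k := by rw [Set.ncard_univ, Nat.card_fun, Nat.card_eq_fintype_card (α := Fin k), Fintype.card_fin]

variable {Q : Type*} [Group Q] [Finite Q] {A : Subgroup Q} {Γ : Subgroup (MulAut Q)}

/-- **The crude bound**: `|Q : A| ≤ |A| ^ (2 k)` if `|A|` has at most `k + 1` prime factors. -/
theorem index_le_crude (h : EPT A Γ) {k : ℕ} (hk : ArithmeticFunction.cardFactors (Nat.card A) ≤ k + 1) :
    A.index ≤ (Nat.card A ^ k) ^ 2 := by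
  refine h.index_le.trans (Nat.pow_le_pow_left ?_ 2)
  refine le_trans (Set.ncard_le_ncard ?_ (Set.toFinite _)) (ncard_lt_le hk)
  rintro M ⟨x, hx, rfl⟩
  have hle : A ⊓ cj x A ≤ A := inf_le_left
  refine lt_of_le_of_ne hle fun e => hx ?_
  have h1 : ∀ a ∈ A, x⁻¹ * a * x ∈ A := fun a ha => by
    have h2 : a ∈ A ⊓ cj x A := by rw [e]; exact ha
    exact mem_cj.1 (mem_inf.1 h2).2
  have h2 := h.selfnorm x⁻¹ (fun a ha => by rw [inv_inv]; exact h1 a ha)
  exact (A.inv_mem_iff).1 h2

/-- the order of `Q` -/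
theorem crude (h : EPT A Γ) {N k : ℕ} (hN0 : N ≠ 0) (hN : Nat.card A ∣ N) (hk : ArithmeticFunction.cardFactors N ≤ k + 1) :
    Nat.card Q ≤ N * (N ^ k) ^ 2 := by
  have h1 := index_le_crude h (k := k) ((cardFactors_le hN0 hN).trans hk)
  have h2 := Nat.le_of_dvd (Nat.pos_of_ne_zero hN0) hN
  rw [← A.card_mul_index]
  exact Nat.mul_le_mul h2 (h1.trans (Nat.pow_le_pow_left (Nat.pow_le_pow_left h2 k) 2))

end Cfsg.Agent.H729.EPM
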